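import Mathlib
import Cfsg.Agent.Lib.Deg.FullRam

/-! Extension of an invariant character to a Sylow subgroup of a product of perfect groups. -/

set_option autoImplicit false
set_option linter.unusedSectionVars false
set_option linter.unusedVariables false

namespace H50.FRam

open Subgroup Cfsg
open scoped commutatorElement

/-- `g` generates `A` modulo a perfect subgroup of `N` centralising `g`. -/
def Gd {X : Type*} [Group X] (N A : Subgroup X) (g : X) : Prop :=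
  g ∈ A ∧ ∃ W ≤ N, W ≤ ⁅W, W⁆ ∧ (∀ w ∈ W, g * w = w * g) ∧ ∀ b ∈ A, ∃ k : ℤ, (g ^ k)⁻¹ * b ∈ W

section

variable {Γ Q X : Type*} [Group Γ] [Finite Γ] [Group Q] [Group X]

theorem pow_mul_rel (q : Γ →* Q) {R Y : Subgroup Γ} (hq : ∀ r ∈ R, ∀ y, q y * q r = q r * q y) {x y : Γ}
    (hx : x ∈ Y) (hy : y ∈ Y) : q (x * y) ^ R.relIndex Y = q x ^ R.relIndex Y * q y ^ R.relIndex Y := by
  have : Finite (Y.map q) := Finite.of_surjective _ (q.subgroupMap_surjective Y)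
  have d : (center (Y.map q)).index ∣ R.relIndex Y := by
    rw [← index_comap_of_surjective _ (q.subgroupMap_surjective Y)]
    refine index_dvd_of_le fun r hr => mem_center_iff.2 ?_
    rintro ⟨_, z, -, rfl⟩
    exact Subtype.ext (hq r hr z)
  obtain ⟨k, hk⟩ := d
  have e := congrArg (fun z : center (Y.map q) => ((z : Y.map q) : Q))
    ((MonoidHom.transferCenterPow (Y.map q)).map_mul ⟨q x, x, hx, rfl⟩ ⟨q y, y, hy, rfl⟩)
  have c := congrArg Subtype.val (mem_center_iff.1 (MonoidHom.transferCenterPow (Y.map q) ⟨q x, x, hx, rfl⟩).2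
    ((⟨q y, y, hy, rfl⟩ : Y.map q) ^ (center (Y.map q)).index))
  simp only [MonoidHom.transferCenterPow_apply, coe_mul, coe_pow] at e c
  rw [hk, pow_mul, pow_mul, pow_mul, map_mul, e, (show Commute _ _ from c.symm).mul_pow]

theorem comm_of_gd (q : Γ →* Q) (φ : Γ →* X) {R B : Subgroup Γ} [R.Normal] (hR : R ≤ φ.ker)
    (hq : ∀ r ∈ R, ∀ y, q y * q r = q r * q y) {p : ℕ} (hp : p.Prime) (hc : ¬ p ∣ R.relIndex φ.ker)
    (hBK : ∀ b ∈ B, φ b = 1 → b ∈ R) (hBp : ∀ b ∈ B, ∃ k, b ^ p ^ k ∈ R) {N : Subgroup X} (hN : N ≤ φ.range)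
    {a b : Γ} (ha : a ∈ B) (hg : Gd N (B.map φ) (φ a)) (hb : b ∈ B) : q a * q b = q b * q a := by
  obtain ⟨-, W, hW, hp', hcw, hd⟩ := hg
  set n := R.relIndex φ.ker with hn
  have pw : ∀ y, φ y = 1 → y ^ n ∈ R := fun y hy => (R.subgroupOf φ.ker).pow_index_mem ⟨y, hy⟩
  have cj : ∀ y, φ y = 1 → ∀ d, q (d * y * d⁻¹) ^ n = q y ^ n := fun y hy d => by
    rw [← map_pow, conj_pow, map_mul, map_mul, hq _ (pw y hy), ← map_pow, map_inv, mul_inv_cancel_right]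
  have kc : ∀ d, φ d ∈ W → φ ⁅a, d⁆ = 1 := fun d hd => by
    rw [map_commutatorElement, commutatorElement_eq_one_iff_mul_comm, hcw _ hd]
  let f : W.comap φ →* Q := MonoidHom.mk' (fun d => q ⁅a, (d : Γ)⁆ ^ n) fun d d' => by
    rw [show ⁅a, ((d * d' : W.comap φ) : Γ)⁆ = ⁅a, (d : Γ)⁆ * (d * ⁅a, (d' : Γ)⁆ * (d : Γ)⁻¹) by
      simp only [commutatorElement_def, coe_mul]; group,
      pow_mul_rel q hq (Y := φ.ker) (kc _ d.2) (MonoidHom.normal_ker φ |>.conj_mem _ (kc _ d'.2) _), cj _ (kc _ d'.2)]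
  have fY : ∀ d : W.comap φ, φ d = 1 → f d = 1 := fun d hd => by
    show q ⁅a, (d : Γ)⁆ ^ n = 1
    rw [commutatorElement_def, pow_mul_rel q hq (Y := φ.ker) (MonoidHom.normal_ker φ |>.conj_mem _ hd _)
      (inv_mem hd), cj _ hd, map_inv, inv_pow, mul_inv_cancel]
  have fa : ∀ d : W.comap φ, f d = 1 := fun d => by
    have : W ≤ (f.ker.map (W.comap φ).subtype).map φ := hp'.trans (commutator_le.2 fun w₁ h₁ w₂ h₂ => by
      obtain ⟨d₁, rfl⟩ := hN (hW h₁)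
      obtain ⟨d₂, rfl⟩ := hN (hW h₂)
      refine ⟨_, ⟨⁅(⟨d₁, h₁⟩ : W.comap φ), ⟨d₂, h₂⟩⁆, ?_, rfl⟩, map_commutatorElement φ d₁ d₂⟩
      rw [SetLike.mem_coe, MonoidHom.mem_ker, map_commutatorElement, commutatorElement_eq_one_iff_mul_comm]
      show q _ ^ n * q _ ^ n = q _ ^ n * q _ ^ n
      rw [← map_pow, ← map_pow, hq _ (pw _ (kc _ h₂))])
    obtain ⟨_, ⟨e, he, rfl⟩, h⟩ := this d.2
    have := fY (e⁻¹ * d) (by
      rw [coe_mul, coe_inv, map_mul, map_inv, inv_mul_eq_one]; exact h)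
    rwa [map_mul, map_inv, show f e = 1 from he, inv_one, one_mul] at this
  obtain ⟨k, hk⟩ := hd _ (mem_map_of_mem φ hb)
  rw [← map_zpow, ← map_inv, ← map_mul] at hk
  set d := (a ^ k)⁻¹ * b with hdd
  have dB : d ∈ B := mul_mem (inv_mem (zpow_mem ha k)) hb
  have cR : ⁅a, d⁆ ∈ R := hBK _ (mul_mem (mul_mem (mul_mem ha dB) (inv_mem ha)) (inv_mem dB)) (kc _ hk)
  have c1 : q ⁅a, d⁆ ^ n = 1 := fa ⟨d, hk⟩
  have it : ∀ i : ℕ, q a ^ i * q d = q ⁅a, d⁆ ^ i * q d * q a ^ i := fun i => by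
    induction i with
    | zero => simp
    | succ i ih =>
      have e : q a * q d = q ⁅a, d⁆ * q d * q a := by
        rw [map_commutatorElement, commutatorElement_def]; group
      have c : Commute (q a) (q ⁅a, d⁆) := hq _ cR a
      calc q a ^ (i + 1) * q d = q a * (q a ^ i * q d) := by rw [pow_succ']; group
        _ = q a * q ⁅a, d⁆ ^ i * q d * q a ^ i := by rw [ih]; group
        _ = q ⁅a, d⁆ ^ i * (q a * q d) * q a ^ i := by rw [(c.pow_right i).eq]; group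
        _ = _ := by rw [e, pow_succ, pow_succ']; group
  obtain ⟨j, hj⟩ := hBp a ha
  have c2 : q ⁅a, d⁆ ^ p ^ j = 1 := by
    have := it (p ^ j)
    rw [← map_pow q a, ← hq _ hj, mul_left_inj, right_eq_mul] at this
    exact this
  have c3 : q ⁅a, d⁆ = 1 := by
    rw [← orderOf_eq_one_iff]
    exact Nat.eq_one_of_dvd_coprimes (Nat.Coprime.pow_left j ((Nat.Prime.coprime_iff_not_dvd hp).2 hc))
      (orderOf_dvd_of_pow_eq_one c2) (orderOf_dvd_of_pow_eq_one c1)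
  rw [map_commutatorElement, commutatorElement_eq_one_iff_commute] at c3
  rw [show b = a ^ k * d by rw [hdd]; group, map_mul, map_zpow]
  exact ((Commute.refl (q a)).zpow_right k).mul_right c3

theorem comm_of_gen (q : Γ →* Q) (φ : Γ →* X) {R B : Subgroup Γ} [R.Normal] (hR : R ≤ φ.ker)
    (hq : ∀ r ∈ R, ∀ y, q y * q r = q r * q y) {p : ℕ} (hp : p.Prime) (hc : ¬ p ∣ R.relIndex φ.ker)
    (hBK : ∀ b ∈ B, φ b = 1 → b ∈ R) (hBp : ∀ b ∈ B, ∃ k, b ^ p ^ k ∈ R) {N : Subgroup X} (hN : N ≤ φ.range)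
    (hg : B.map φ ≤ closure {g | Gd N (B.map φ) g}) {a b : Γ} (ha : a ∈ B) (hb : b ∈ B) :
    q a * q b = q b * q a := by
  have : closure {g | Gd N (B.map φ) g} ≤ (B ⊓ (centralizer {q b}).comap q).map φ := (closure_le _).2 fun g h => by
    obtain ⟨x, hx, rfl⟩ := h.1
    exact ⟨x, ⟨hx, mem_centralizer_singleton_iff.2 (comm_of_gd q φ hR hq hp hc hBK hBp hN hx h hb)⟩, rfl⟩
  obtain ⟨x, ⟨hx, xc⟩, e⟩ := this (hg (mem_map_of_mem φ ha))
  have r := hBK _ (mul_mem (inv_mem hx) ha) (by rw [map_mul, map_inv, e, inv_mul_cancel])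
  rw [show a = x * (x⁻¹ * a) by group, map_mul]
  exact (show Commute (q x) (q b) from mem_centralizer_singleton_iff.1 xc).mul_left (hq _ r b).symm

end

theorem ext_of_gen {D X : Type*} [Group D] [Finite D] [Group X] (σ : D →* X) {R B : Subgroup D} [hRn : R.Normal]
    (hR : R ≤ σ.ker) {p : ℕ} (hp : p.Prime) (hc : ¬ p ∣ R.relIndex σ.ker) (hRB : R ≤ B)
    (hBK : ∀ b ∈ B, σ b = 1 → b ∈ R) (hBp : ∀ b ∈ B, ∃ k, b ^ p ^ k ∈ R) {N : Subgroup X} (hN : N ≤ σ.range)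
    (hg : B.map σ ≤ closure {g | Gd N (B.map σ) g}) {ϑ : R → ℂ} (hϑ : IsIrrCharacter R ϑ)
    (hinv : ∀ (g : D) (n : R), ϑ ⟨g * n * g⁻¹, hRn.conj_mem (n : D) n.2 g⟩ = ϑ n) :
    ∃ ξ : B → ℂ, IsCharacter B ξ ∧ ∀ n : R, ξ ⟨n, hRB n.2⟩ = ϑ n := by
  obtain ⟨Γ, _, _, ρ, τ, ν, h⟩ := H31.exists_centralExt R hϑ hinv
  have hK := H31.normal_ker_map ν h.inv
  set K := ν.ker.map (R.comap ρ).subtype with hKd
  have mp : (B.comap ρ).map (σ.comp ρ) = B.map σ := by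
    rw [← map_map, map_comap_eq_self_of_surjective h.surj]
  have cm : ∀ a ∈ B.comap ρ, ∀ b ∈ B.comap ρ, ⁅a, b⁆ ∈ K := fun a ha b hb => by
    rw [← QuotientGroup.eq_one_iff, ← QuotientGroup.mk'_apply, map_commutatorElement,
      commutatorElement_eq_one_iff_mul_comm]
    refine comm_of_gen (QuotientGroup.mk' K) (σ.comp ρ) (R := R.comap ρ) (fun r hr => hR hr) (fun r hr y => ?_) hp ?_
      (fun b hb e => hBK _ hb e) (fun b hb => ?_) (N := N) ?_ (mp ▸ hg) ha hb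
    · rw [← commutatorElement_eq_one_iff_mul_comm, ← map_commutatorElement, QuotientGroup.mk'_apply,
        QuotientGroup.eq_one_iff]
      refine ⟨⟨y * r * y⁻¹, (hRn.comap ρ).conj_mem _ hr y⟩ * (⟨r, hr⟩ : R.comap ρ)⁻¹, ?_, rfl⟩
      rw [SetLike.mem_coe, MonoidHom.mem_ker, map_mul, h.inv y ⟨r, hr⟩, map_inv, mul_inv_cancel]
    · rwa [← MonoidHom.comap_ker, relIndex_comap, map_comap_eq_self_of_surjective h.surj]
    · obtain ⟨k, hk⟩ := hBp _ hb
      exact ⟨k, by rwa [mem_comap, map_pow]⟩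
    · rwa [MonoidHom.range_comp, MonoidHom.range_eq_top.2 h.surj, ← MonoidHom.range_eq_map]
  have hle : R.comap ρ ≤ B.comap ρ := comap_mono hRB
  obtain ⟨μ, hμ⟩ := H31.exists_hom_ext_of_commutator ((R.comap ρ).subgroupOf (B.comap ρ))
    (ν.comp (subgroupOfEquivOfLe hle).toMonoidHom) fun n hn => by
      have : _root_.commutator (B.comap ρ) ≤ K.subgroupOf (B.comap ρ) :=
        commutator_le.2 fun a _ b _ => cm a a.2 b b.2
      obtain ⟨x, hx, e⟩ := this hn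
      rw [← show ν x = 1 from hx]
      exact congrArg ν (Subtype.ext e.symm)
  have key : ∀ x : R.comap ρ, τ x * μ ⟨x, hle x.2⟩ = ϑ ⟨ρ x, x.2⟩ := fun x => by
    rw [← h.eq, hμ ⟨⟨x, hle x.2⟩, x.2⟩]
    rfl
  obtain ⟨ξ, hξ, hρ⟩ := H31.exists_char_descend (ρ.subgroupComap B) (h.surjective_res B)
    (ψ := fun y => τ y * μ y) (H6.isCharacter_mul (H6.isCharacter_restrict _ (H6.irr_isCharacter h.irr))
      (H6.isCharacter_hom μ)) fun z hz => by
      have hz' : ρ z = 1 := congrArg Subtype.val hz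
      have m : (z : Γ) ∈ R.comap ρ := by rw [mem_comap, hz']; exact one_mem _
      rw [key ⟨z, m⟩, map_one, Units.val_one, mul_one, coe_one, h.tau_one]
      exact congrArg ϑ (Subtype.ext hz')
  refine ⟨ξ, hξ, fun n => ?_⟩
  obtain ⟨x, rfl⟩ := h.surjective_res R n
  exact (hρ ⟨x, hle x.2⟩).trans (key x)

end H50.FRam
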