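import Mathlib
import Cfsg.Agent.Lib.FRam.Form

/-! Fully ramified characters: a bound for the Sylow subgroups of a chief factor. -/

set_option autoImplicit false
set_option linter.unusedSectionVars false
set_option linter.unusedVariables false

namespace H50.FRam

open Subgroup Cfsg H87 H6
open scoped ComplexConjugate

variable {G : Type*} [Group G] [Finite G] {Z : Subgroup G} {χ : G → ℂ} {θ : Z → ℂ} {e : ℕ}

theorem over_of_sum (h : FR Z χ θ e) {T : Subgroup G} (hZT : Z ≤ T) {ξ : T → ℂ} (hξ : IsIrrCharacter T ξ)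
    (ho : ∑ᶠ z : Z, ξ ⟨z, hZT z.2⟩ * conj (θ z) ≠ 0) : Over T χ ξ := by
  obtain ⟨ψ, hψ, o⟩ := exists_over hξ
  rwa [h.eq_of_over hψ (o.trans hZT ho (irr_isCharacter hψ) hξ (irr_isCharacter h.irr'))] at o

theorem exists_sum (h : FR Z χ θ e) {T : Subgroup G} (hZT : Z ≤ T) :
    ∃ ξ : T → ℂ, IsIrrCharacter T ξ ∧ ∑ᶠ z : Z, ξ ⟨z, hZT z.2⟩ * conj (θ z) ≠ 0 := by
  obtain ⟨ξ, hξ, o⟩ := exists_over (H7.isIrr_subgroupOf hZT h.irr')
  refine ⟨ξ, hξ, ?_⟩
  rwa [← finsum_comp_equiv (subgroupOfEquivOfLe hZT).toEquiv]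

theorem sq_le (h : FR Z χ θ e) {A B : Subgroup G} [A.Normal] [B.Normal] (hZA : Z ≤ A) (hAB : A ≤ B) {η : A → ℂ}
    (hη : IsIrrCharacter A η) (ho : ∑ᶠ z : Z, η ⟨z, hZA z.2⟩ * conj (θ z) ≠ 0) {ξ : B → ℂ} (hξ : IsCharacter B ξ)
    (he : ∀ n : A, ξ ⟨n, hAB n.2⟩ = η n) : A.relIndex B ^ 2 ≤ A.index := by
  have hξ' : IsIrrCharacter B ξ := H31.isIrr_of_comp_isIrr (inclusion hAB) hξ (by
    rw [show (fun k => ξ (inclusion hAB k)) = η from funext he]; exact hη)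
  obtain ⟨e₁, a1, a2⟩ := index_dvd_of_vanish (N := A) h.irr (fun g hg => h.vanish fun hz => hg (hZA hz)) hη
    (over_of_sum h hZA hη ho)
  obtain ⟨e₂, b1, b2⟩ := index_dvd_of_vanish (N := B) h.irr (fun g hg => h.vanish fun hz => hg (hAB (hZA hz))) hξ'
    (over_of_sum h (hZA.trans hAB) hξ' (by rwa [← show _ = _ from finsum_congr fun z : Z =>
      congrArg (· * conj (θ z)) (he ⟨z, hZA z.2⟩)] at ho))
  have d : charDegree ξ = charDegree η := by
    have := he 1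
    rw [show (⟨((1 : A) : G), hAB (1 : A).2⟩ : B) = 1 from rfl, ← irr_deg_cast hξ', ← irr_deg_cast hη] at this
    exact_mod_cast this
  rw [a1, d] at b1
  have c := Nat.eq_of_mul_eq_mul_right (deg_pos hη) b1
  have r := relIndex_mul_index hAB
  have p : 0 < e₁ * (H7.inertia η).index := by
    have := deg_pos h.irr
    rw [a1] at this
    exact Nat.pos_of_mul_pos_right this
  have k : A.relIndex B * e₂ = e₁ := Nat.eq_of_mul_eq_mul_right p (by
    calc _ = A.relIndex B * (e₂ ^ 2 * (H7.inertia ξ).index) := by rw [c]; ring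
      _ = _ := by rw [← b2, r, a2]; ring)
  have e2 : 0 < e₂ := Nat.pos_of_mul_pos_right (c ▸ p)
  calc _ ≤ A.relIndex B ^ 2 * (e₂ ^ 2 * (H7.inertia η).index) :=
        Nat.le_mul_of_pos_right _ (Nat.mul_pos (pow_pos e2 2) (Nat.pos_of_mul_pos_left p))
    _ = _ := by rw [a2, ← k]; ring

theorem relIndex_dvd_of_norm {M K L : Subgroup G} (hM : M ≤ L) (hK : K ≤ L) (hn : L ≤ normalizer (K : Set G)) :
    M.relIndex K ∣ M.relIndex L := by
  rw [← relIndex_eq_of_mul (T := K ⊔ M) le_sup_left fun t ht => by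
    rw [← SetLike.mem_coe, coe_mul_of_right_le_normalizer_left _ _ (hM.trans hn)] at ht
    obtain ⟨a, ha, c, hc, rfl⟩ := ht
    exact ⟨a, ha, c, hc, rfl⟩]
  exact Dvd.intro _ (relIndex_mul_relIndex _ _ _ le_sup_right (sup_le hK hM))

theorem exists_stab [Z.Normal] (h : FR Z χ θ e) {K S : Subgroup G} [hK : K.Normal]
    {ψ : S → ℂ} {f : ℕ} (h' : FR (Z.subgroupOf S) ψ (subOf S θ) f)
    {η : K.subgroupOf S → ℂ} (hη : IsIrrCharacter _ η) (ho : Over (K.subgroupOf S) ψ η) :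
    ∃ T : Subgroup G, S ⊓ K ≤ T ∧ T ≤ normalizer ((S ⊓ K : Subgroup G) : Set G) ∧
      (∀ n ∈ normalizer ((S ⊓ K : Subgroup G) : Set G), ∃ s ∈ S, ∃ t ∈ T, n = s * t) ∧
      ∀ t ∈ T, ∀ (x : G) (hx : x ∈ S ⊓ K) (hx' : t * x * t⁻¹ ∈ S ⊓ K),
        η ⟨⟨_, hx'.1⟩, hx'.2⟩ = η ⟨⟨x, hx.1⟩, hx.2⟩ := by
  classical
  set N := normalizer ((S ⊓ K : Subgroup G) : Set G) with hN
  have hSN : S ≤ N := H68.le_normalizer_of_forall_cj_le fun g hg => H68.cj_le_iff'.2 fun x hx =>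
    ⟨S.mul_mem (S.mul_mem hg hx.1) (S.inv_mem hg), hK.conj_mem x hx.2 g⟩
  let u : G → ℂ := fun g => if hg : g ∈ S ⊓ K then η ⟨⟨g, hg.1⟩, hg.2⟩ else 0
  have hu : ∀ (g : G) (hg : g ∈ S ⊓ K), u g = η ⟨⟨g, hg.1⟩, hg.2⟩ := fun g hg => dif_pos hg
  have hu0 : ∀ g : G, g ∉ S ⊓ K → u g = 0 := fun g hg => dif_neg hg
  have hfix : ∀ n ∈ N, (∀ x ∈ S ⊓ K, u (n * x * n⁻¹) = u x) → n ∈ fixFun u := fun n hn hx x => by
    by_cases hm : x ∈ S ⊓ K
    · exact hx x hm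
    · rw [hu0 x hm, hu0]
      exact fun h2 => hm ((mem_normalizer_iff.1 hn x).2 h2)
  refine ⟨N ⊓ fixFun u, fun x hx => ⟨hSN hx.1, hfix x (hSN hx.1) fun y hy => ?_⟩, inf_le_left, fun n hn => ?_,
    fun t ht x hx hx' => by rw [← hu _ hx, ← hu _ hx', ht.2 x]⟩
  · rw [hu y hy, hu _ (H68.conj_mem_of_mem_normalizer (hSN hx.1) hy)]
    exact irr_isClassFunction hη ⟨⟨y, hy.1⟩, hy.2⟩ ⟨⟨x, hx.1⟩, hx.2⟩
  have hm : ∀ x : K.subgroupOf S, n⁻¹ * (x : S) * n ∈ S ⊓ K := fun x =>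
    H68.conj_mem_of_mem_normalizer' hn ⟨(x : S).2, x.2⟩
  have hm' : ∀ x : K.subgroupOf S, n * (x : S) * n⁻¹ ∈ S ⊓ K := fun x =>
    H68.conj_mem_of_mem_normalizer hn ⟨(x : S).2, x.2⟩
  let c : K.subgroupOf S ≃* K.subgroupOf S :=
    { toFun := fun x => ⟨⟨n⁻¹ * (x : S) * n, (hm x).1⟩, (hm x).2⟩
      invFun := fun x => ⟨⟨n * (x : S) * n⁻¹, (hm' x).1⟩, (hm' x).2⟩
      left_inv := fun x => Subtype.ext (Subtype.ext (by simp [mul_assoc]))
      right_inv := fun x => Subtype.ext (Subtype.ext (by simp [mul_assoc]))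
      map_mul' := fun x y => Subtype.ext (Subtype.ext (by simp [mul_assoc])) }
  have hc : ∀ x, ψ (c x : S) = ψ x := fun x => by
    refine mul_left_cancel₀ h.ne ?_
    rw [h.mul_sub h', h.mul_sub h']
    congr 1
    exact H7.isClassFunction_inv_conj (irr_isClassFunction h.irr) _ _
  have ho' : Over (K.subgroupOf S) ψ (fun x => η (c x)) := by
    have := Fintype.ofFinite (K.subgroupOf S)
    rw [Over, finsum_eq_sum_of_fintype] at ho ⊢
    rw [← Equiv.sum_comp c.toEquiv] at ho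
    simpa [hc] using ho
  obtain ⟨g, hg⟩ := ho.exists_conj ho' h'.irr hη (isIrrCharacter_comp_equiv c hη)
  have hgn : (g : G) * n ∈ N := N.mul_mem (hSN g.2) hn
  refine ⟨g⁻¹, S.inv_mem g.2, g * n, ⟨hgn, hfix _ hgn fun x hx => ?_⟩, by group⟩
  have h2 := congrFun hg (c.symm ⟨⟨x, hx.1⟩, hx.2⟩)
  simp only [MulEquiv.apply_symm_apply] at h2
  rw [hu x hx, h2, hu _ (H68.conj_mem_of_mem_normalizer hgn hx), H7.conjChar_apply]
  congr 1
  exact Subtype.ext (Subtype.ext (by simp [c, mul_assoc]))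

theorem core [Z.Normal] (h : FR Z χ θ e) {X : Type*} [Group X] (π : G →* X) (hπ : Function.Surjective π)
    (hZ : Z ≤ π.ker) {p : ℕ} [hp : Fact p.Prime] (P : Sylow p G) {N : Subgroup X} [N.Normal]
    (hM : ∀ M : Subgroup X, (∃ j, M.index = p ^ j) → N ≤ M)
    (hg : N ⊓ (P : Subgroup G).map π ≤ closure {g | Gd N (N ⊓ (P : Subgroup G).map π) g}) :
    Nat.card (N ⊓ (P : Subgroup G).map π : Subgroup X) ^ 2 ≤ Nat.card ((P : Subgroup G).map π) := by
  set K := π.ker with hKd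
  obtain ⟨⟨k, hk⟩, hS, hfr⟩ := sylow_over Z K hZ P
  set S : Subgroup G := Z ⊔ P with hSd
  have hZS : Z ≤ S := le_sup_left
  have mS : S.map π = (P : Subgroup G).map π := by
    rw [hSd, Subgroup.map_sup, (map_eq_bot_iff Z).2 hZ, bot_sup_eq]
  rw [← mS] at hg ⊢
  obtain ⟨ψ, f, h'⟩ := h.exists_sub hZS (hk ▸ Nat.Coprime.pow_left _ ((Nat.Prime.coprime_iff_not_dvd hp.out).2 hS))
  have zk : Z.subgroupOf S ≤ K.subgroupOf S := fun x hx => hZ hx
  obtain ⟨η, hη, ho⟩ := exists_sum h' zk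
  obtain ⟨T, RT, TN, h1, hT⟩ := exists_stab h h' hη (over_of_sum h' zk hη ho)
  set R := S ⊓ K with hRd
  set N₀ := normalizer (R : Set G) with hN₀
  have hSN : S ≤ N₀ := H68.le_normalizer_of_forall_cj_le fun g hg => H68.cj_le_iff'.2 fun x hx =>
    ⟨S.mul_mem (S.mul_mem hg hx.1) (S.inv_mem hg), (MonoidHom.normal_ker π).conj_mem x hx.2 g⟩
  have ZT : Z ≤ T := (le_inf hZS hZ).trans RT
  have NM : N ≤ (T ⊔ K).map π := hM _ (by
    have h3 : (T ⊔ K).index = (T ⊔ K).relIndex S := by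
      rw [← relIndex_top_right]
      refine relIndex_eq_of_mul le_top fun g _ => ?_
      obtain ⟨n, hn, x, hx, rfl⟩ := hfr g
      obtain ⟨s, hs, t, ht, rfl⟩ := h1 n hn
      exact ⟨s, hs, t * x, mul_mem_sup ht hx, mul_assoc _ _ _⟩
    obtain ⟨j, -, hj⟩ := (Nat.dvd_prime_pow hp.out).1 (hk ▸ relIndex_dvd_of_le_left S (hZ.trans (le_sup_right : K ≤ T ⊔ K)))
    exact ⟨j, by rw [index_map_eq _ hπ le_sup_right, h3, hj]⟩)
  have cop : ¬ p ∣ R.relIndex (N₀ ⊓ K) := fun d => hS (by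
    refine d.trans ((Dvd.intro _ (relIndex_mul_relIndex _ _ K (le_inf le_normalizer inf_le_right) inf_le_right)).trans ?_)
    rw [inf_relIndex_right, ← relIndex_top_right]
    exact relIndex_dvd_of_norm le_top le_top le_normalizer_of_normal)
  have YT : N₀ ⊓ K ≤ T := relIndex_eq_one.1 (by
    refine Nat.eq_one_of_dvd_coprimes (Nat.Coprime.pow_left k ((Nat.Prime.coprime_iff_not_dvd hp.out).2 cop)) ?_
      (relIndex_dvd_of_le_left _ RT)
    refine (relIndex_dvd_of_norm TN inf_le_left ?_).trans ?_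
    · exact H68.le_normalizer_of_forall_cj_le fun g hg => H68.cj_le_iff'.2 fun x hx =>
        ⟨N₀.mul_mem (N₀.mul_mem hg hx.1) (N₀.inv_mem hg), (MonoidHom.normal_ker π).conj_mem x hx.2 g⟩
    · rw [relIndex_eq_of_mul hSN h1, ← hk]
      exact relIndex_dvd_of_le_left S ZT)
  set D := N₀ ⊓ N.comap π with hDd
  have DT : D ≤ T := fun d hd => by
    obtain ⟨x, hx, e⟩ := NM hd.2
    have : d ∈ T ⊔ K := by
      rw [show d = x * (x⁻¹ * d) by group]
      exact mul_mem hx (mem_sup_right (by rw [hKd, MonoidHom.mem_ker, map_mul, map_inv, e, inv_mul_cancel]))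
    obtain ⟨t, ht, y, hy, rfl⟩ := mem_sup_of_normal_right.1 this
    exact mul_mem ht (YT ⟨(mul_mem_cancel_left (TN ht)).1 hd.1, hy⟩)
  have KN : K ≤ N.comap π := fun x hx => by rw [mem_comap, show π x = 1 from hx]; exact one_mem _
  have RD : R ≤ D := le_inf le_normalizer (inf_le_right.trans KN)
  have BD : S ⊓ N.comap π ≤ D := inf_le_inf_right _ hSN
  have hRn : (R.subgroupOf D).Normal := normal_subgroupOf_of_le_normalizer inf_le_left
  have mB : ((S ⊓ N.comap π).subgroupOf D).map (π.comp D.subtype) = N ⊓ S.map π := by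
    rw [← map_map, subgroupOf_map_subtype, inf_eq_left.2 BD]
    refine le_antisymm (map_le_iff_le_comap.2 fun x hx => ⟨hx.2, x, hx.1, rfl⟩) ?_
    rintro _ ⟨hn, x, hx, rfl⟩
    exact ⟨x, ⟨hx, hn⟩, rfl⟩
  let ε : R.subgroupOf D ≃* K.subgroupOf S :=
    { toFun := fun x => ⟨⟨x.1.1, x.2.1⟩, x.2.2⟩
      invFun := fun x => ⟨⟨x.1.1, RD ⟨x.1.2, x.2⟩⟩, x.1.2, x.2⟩
      left_inv := fun _ => rfl
      right_inv := fun _ => rfl
      map_mul' := fun _ _ => rfl }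
  obtain ⟨ξ, hξ, hx⟩ := ext_of_gen (π.comp D.subtype) (R := R.subgroupOf D) (B := (S ⊓ N.comap π).subgroupOf D)
    (fun x hx => hx.2) hp.out (by
      rw [← MonoidHom.comap_ker, subgroupOf, relIndex_comap, ← subgroupOf, subgroupOf_map_subtype, ← hKd,
        show K ⊓ D = N₀ ⊓ K from le_antisymm (fun x hx => ⟨hx.2.1, hx.1⟩) fun x hx => ⟨hx.2, hx.1, KN hx.2⟩]
      exact cop)
    (fun x hx => ⟨hx.1, KN hx.2⟩) (fun b hb e => ⟨hb.1, e⟩) (fun b hb => by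
      have := (Z.subgroupOf S).pow_index_mem ⟨b, hb.1⟩
      rw [show (Z.subgroupOf S).index = p ^ k from hk] at this
      exact ⟨k, hZS this, hZ this⟩) (N := N) (fun y hy => by
      obtain ⟨g, rfl⟩ := hπ y
      obtain ⟨n, hn, x, hx, rfl⟩ := hfr g
      have e : π (n * x) = π n := by rw [map_mul, show π x = 1 from hx, mul_one]
      exact ⟨⟨n, hn, show π n ∈ N from e ▸ hy⟩, e.symm⟩) (mB ▸ hg) (isIrrCharacter_comp_equiv ε hη)
    fun g n => hT g (DT g.2) n n.2 (hRn.conj_mem _ n.2 g)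
  let ι : (N.comap π).subgroupOf S →* (S ⊓ N.comap π).subgroupOf D :=
    { toFun := fun x => ⟨⟨x.1.1, BD ⟨x.1.2, x.2⟩⟩, x.1.2, x.2⟩
      map_one' := rfl
      map_mul' := fun _ _ => rfl }
  have := sq_le h' zk (B := (N.comap π).subgroupOf S) (fun x hx => KN hx) hη ho (isCharacter_comp ι hξ)
    fun n => hx (ε.symm n)
  rw [← relIndex_ker, ← mB, ← relIndex_ker]
  refine le_of_eq_of_le ?_ this
  congr 1
  rw [← MonoidHom.comap_ker, relIndex_comap, subgroupOf_map_subtype, inf_eq_left.2 BD, inf_comm]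
  exact ((relIndex_comap _ _ _).trans (by rw [subgroupOf_map_subtype])).symm

end H50.FRam
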