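import Mathlib
import Cfsg.Agent.Lib.FRam.Core

/-! Non-abelian minimal normal subgroups and fully ramified characters. -/

set_option autoImplicit false
set_option linter.unusedSectionVars false
set_option linter.unusedVariables false

namespace H50.FRam

open Subgroup Cfsg H68
open scoped commutatorElement

variable {X : Type*} [Group X] [Finite X]

/-- `N` is the product of the commuting non-abelian simple groups in `𝒞`. -/
structure Soc (N : Subgroup X) (𝒞 : Set (Subgroup X)) : Prop where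
  le : ∀ C ∈ 𝒞, C ≤ N
  sup : N ≤ sSup 𝒞
  comm : ∀ C ∈ 𝒞, ∀ C' ∈ 𝒞, C ≠ C' → ∀ a ∈ C, ∀ b ∈ C', a * b = b * a
  simple : ∀ C ∈ 𝒞, IsSimpleGroup C
  nab : ∀ C ∈ 𝒞, ¬ IsMulCommutative C
  cnj : ∀ C ∈ 𝒞, ∀ x, cj x C ∈ 𝒞

theorem exists_soc {N : Subgroup X} (h : H3.IsMinNormal N) (hn : ¬ IsMulCommutative N) :
    ∃ C : Subgroup X, Soc N (Set.range fun x => cj x C) := by
  have := h.normal
  obtain ⟨C, ⟨C1, CN, nC⟩, hm⟩ := (wellFounded_lt (α := Subgroup X)).has_min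
    {C | C ≠ ⊥ ∧ C ≤ N ∧ N ≤ normalizer (C : Set X)} ⟨N, h.ne_bot, le_rfl, le_normalizer⟩
  have le : ∀ x, cj x C ≤ N := fun x => (cj_mono x CN).trans (cj_eq_of_normal x N).le
  have nr : ∀ x, N ≤ normalizer (cj x C : Set X) := fun x => by
    rw [← cj_normalizer, ← cj_eq_of_normal x N]; exact cj_mono x nC
  have mn : ∀ x (E : Subgroup X), E ≤ cj x C → N ≤ normalizer (E : Set X) → E = ⊥ ∨ E = cj x C := fun x E h1 h2 => by
    by_contra! hc
    refine hm (cj x⁻¹ E) ⟨by simpa [cj_eq_bot_iff] using hc.1, (le_cj_iff.1 h1).trans CN, ?_⟩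
      (lt_of_le_of_ne (le_cj_iff.1 h1) fun e => hc.2 (by rw [← e, cj_cj_inv]))
    rw [← cj_normalizer, ← cj_eq_of_normal x⁻¹ N]; exact cj_mono _ h2
  have comm : ∀ x y, cj x C ≠ cj y C → ∀ a ∈ cj x C, ∀ b ∈ cj y C, a * b = b * a := fun x y ne a ha b hb => by
    have i : cj x C ⊓ cj y C = ⊥ := by
      have nn : N ≤ normalizer ((cj x C ⊓ cj y C : Subgroup X) : Set X) :=
        (le_inf (nr x) (nr y)).trans inf_normalizer_le_normalizer_inf
      by_contra c
      exact ne (((mn x _ inf_le_left nn).resolve_left c).symm.trans ((mn y _ inf_le_right nn).resolve_left c))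
    rw [← commutatorElement_eq_one_iff_mul_comm, ← mem_bot, ← i, commutatorElement_def]
    exact ⟨by
      rw [show a * b * a⁻¹ * b⁻¹ = a * (b * a⁻¹ * b⁻¹) by group]
      exact (cj x C).mul_mem ha (conj_mem_of_mem_normalizer (nr x (le y hb)) ((cj x C).inv_mem ha)),
      (cj y C).mul_mem (conj_mem_of_mem_normalizer (nr y (le x ha)) hb) ((cj y C).inv_mem hb)⟩
  have sup : N ≤ sSup (Set.range fun x => cj x C) := by
    have : (sSup (Set.range fun x => cj x C)).Normal := normal_of_forall_cj_le fun g => by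
      rw [sSup_range, cj_iSup]
      exact iSup_le fun x => by rw [← cj_mul]; exact le_iSup (fun x => cj x C) _
    refine ((h.eq_bot_or_eq _ this (sSup_le ?_)).resolve_left fun e => C1 ?_).ge
    · rintro _ ⟨x, rfl⟩; exact le x
    · exact eq_bot_iff.2 (e ▸ le_sSup ⟨1, cj_one C⟩)
  refine ⟨C, ?_, sup, ?_, ?_, ?_, ?_⟩
  · rintro _ ⟨x, rfl⟩; exact le x
  · rintro _ ⟨x, rfl⟩ _ ⟨y, rfl⟩; exact comm x y
  · rintro _ ⟨x, rfl⟩
    have : Nontrivial (cj x C) := (nontrivial_iff_ne_bot _).2 (by simpa [cj_eq_bot_iff] using C1)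
    refine ⟨fun E hE => ?_⟩
    rcases mn x (E.map (cj x C).subtype) (map_subtype_le E) (sup.trans (sSup_le (by
      rintro _ ⟨y, rfl⟩
      by_cases e : cj y C = cj x C
      · rw [show (fun x => cj x C) y = cj x C from e]
        exact le_normalizer_of_forall_cj_le fun g hg => cj_le_iff'.2 (by
          rintro _ ⟨a, ha, rfl⟩
          exact ⟨_, hE.conj_mem a ha ⟨g, hg⟩, rfl⟩)
      · exact le_normalizer_of_forall_cj_le fun g hg => cj_le_iff'.2 fun a ha => by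
          rwa [comm y x e g hg a (map_subtype_le E ha), mul_inv_cancel_right]))) with e | e
    · exact .inl ((map_eq_bot_iff_of_injective _ (subtype_injective _)).1 e)
    · exact .inr (map_injective (subtype_injective _) (by rw [e, ← MonoidHom.range_eq_map, range_subtype]))
  · rintro _ ⟨x, rfl⟩ hc
    have all : ∀ y z, ∀ a ∈ cj y C, ∀ b ∈ cj z C, a * b = b * a := fun y z a ha b hb => by
      by_cases e : cj y C = cj z C
      · rw [← e] at hb
        have := congrArg Subtype.val (hc.is_comm.comm ⟨_, conj_mem_cj.2 (mem_cj.1 ha)⟩ ⟨_, conj_mem_cj.2 (mem_cj.1 hb)⟩)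
        simp only [coe_mul] at this
        calc a * b = y * x⁻¹ * (x * (y⁻¹ * a * y) * x⁻¹ * (x * (y⁻¹ * b * y) * x⁻¹)) * x * y⁻¹ := by group
          _ = _ := by rw [this]; group
      · exact comm y z e a ha b hb
    refine hn ⟨⟨fun a b => Subtype.ext ?_⟩⟩
    have h1 : ∀ z, ∀ b ∈ cj z C, N ≤ centralizer {b} := fun z b hb => sup.trans (sSup_le (by
      rintro _ ⟨y, rfl⟩ a ha
      exact mem_centralizer_singleton_iff.2 (all y z a ha b hb)))
    have h2 : N ≤ centralizer {(a : X)} := sup.trans (sSup_le (by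
      rintro _ ⟨y, rfl⟩ b hb
      exact mem_centralizer_singleton_iff.2 (mem_centralizer_singleton_iff.1 (h1 y b hb a.2)).symm))
    exact (mem_centralizer_singleton_iff.1 (h2 b.2)).symm
  · rintro _ ⟨x, rfl⟩ y
    exact ⟨y * x, cj_mul _ _ _⟩

/-- The properties of the prime `p` for the simple group `S`. -/
structure Pr (p : ℕ) (S : Type*) [Group S] : Prop where
  dvd : p ∣ Nat.card S
  cyc : ∀ R : Subgroup S, IsPGroup p R → IsCyclic R
  inn : ∀ α : MulAut S, (∃ k, α ^ p ^ k = 1) → ∃ c, α = MulAut.conj c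
  idx : ∀ M : Subgroup S, (∃ j, M.index = p ^ j) → M = ⊤

theorem Pr.of_equiv {p : ℕ} {S T : Type*} [Group S] [Group T] (h : Pr p T) (e : S ≃* T) : Pr p S where
  dvd := Nat.card_congr e.toEquiv ▸ h.dvd
  cyc R hR := (e.subgroupMap R).isCyclic.2 (h.cyc _ (hR.map _))
  inn α := fun ⟨k, hk⟩ => by
    obtain ⟨c, hc⟩ := h.inn (MulAut.congr e α) ⟨k, by rw [← map_pow, hk, map_one]⟩
    refine ⟨e.symm c, MulEquiv.ext fun x => e.injective ?_⟩
    simpa using DFunLike.congr_fun hc (e x)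
  idx M := fun ⟨j, hj⟩ => by
    have := h.idx (M.map e.toMonoidHom) ⟨j, by rw [← hj]; exact index_map_of_bijective e.bijective M⟩
    exact map_injective (f := e.toMonoidHom) e.injective (this.trans (map_top_of_surjective _ e.surjective).symm)

namespace Soc

variable {N C : Subgroup X} {𝒞 : Set (Subgroup X)} (h : Soc N 𝒞)
include h

theorem cent (hC : C ∈ 𝒞) {s : Set (Subgroup X)} (hs : s ⊆ 𝒞) (hn : C ∉ s) {c w : X} (hc : c ∈ C) (hw : w ∈ sSup s) :
    c * w = w * c :=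
  (mem_centralizer_singleton_iff.1 ((sSup_le fun C' h' b hb => mem_centralizer_singleton_iff.2
    (h.comm C' (hs h') C hC (fun e => hn (e ▸ h')) b hb c hc) : sSup s ≤ centralizer {c}) hw)).symm

theorem nrm (hC : C ∈ 𝒞) : N ≤ normalizer (C : Set X) := h.sup.trans (sSup_le fun C' h' => by
  by_cases e : C' = C
  · rw [e]; exact le_normalizer
  · exact le_normalizer_of_forall_cj_le fun g hg => cj_le_iff'.2 fun a ha => by
      rwa [h.comm C' h' C hC e g hg a ha, mul_inv_cancel_right])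

theorem triv (hC : C ∈ 𝒞) {c : X} (hc : c ∈ C) (hz : ∀ a ∈ C, a * c = c * a) : c = 1 := by
  have := h.simple C hC
  rcases (inferInstance : (center C).Normal).eq_bot_or_eq_top with e | e
  · have m : (⟨c, hc⟩ : C) ∈ center C := mem_center_iff.2 fun a => Subtype.ext (hz a a.2)
    rw [e] at m
    exact congrArg Subtype.val (mem_bot.1 m)
  · exact (h.nab C hC ⟨⟨fun a b => mem_center_iff.1 (e ▸ mem_top b) a⟩⟩).elim

theorem disj (hC : C ∈ 𝒞) {s : Set (Subgroup X)} (hs : s ⊆ 𝒞) (hn : C ∉ s) {c : X} (hc : c ∈ C) (hw : c ∈ sSup s) :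
    c = 1 := h.triv hC hc fun a ha => h.cent hC hs hn ha hw

theorem perf (hC : C ∈ 𝒞) : C ≤ ⁅C, C⁆ := by
  have := h.simple C hC
  rcases (inferInstance : (_root_.commutator C).Normal).eq_bot_or_eq_top with e | e
  · exact (h.nab C hC ⟨⟨fun a b => commutatorElement_eq_one_iff_mul_comm.1
      (mem_bot.1 (e ▸ commutator_mem_commutator (mem_top a) (mem_top b)))⟩⟩).elim
  · rw [← map_subtype_commutator, e, ← MonoidHom.range_eq_map, range_subtype]

theorem dec (hC : C ∈ 𝒞) {s : Set (Subgroup X)} (hs : s ⊆ 𝒞) {x : X} (hx : x ∈ C ⊔ sSup s) :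
    ∃ c ∈ C, ∃ w ∈ sSup s, x = c * w :=
  (mem_sup_of_le_normalizer' ((sSup_le fun C' h' => h.le C' (hs h')).trans (h.nrm hC))).1 hx

theorem comp {p : ℕ} [Fact p.Prime] {A : Subgroup X} (hA : SylowIn p A N) (hC : C ∈ 𝒞) {c w : X} (hc : c ∈ C)
    (hw : w ∈ sSup (𝒞 \ {C})) (hb : c * w ∈ A) : c ∈ A := by
  have cm : ∀ {c w : X}, c ∈ C → w ∈ sSup (𝒞 \ {C}) → c * w = w * c := fun hc hw =>
    h.cent hC (s := 𝒞 \ {C}) Set.sdiff_subset (fun e => e.2 rfl) hc hw
  let A' : Subgroup X :=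
    { carrier := {c | c ∈ C ∧ ∃ w ∈ sSup (𝒞 \ {C}), c * w ∈ A}
      one_mem' := ⟨one_mem _, 1, one_mem _, by simp⟩
      mul_mem' := by
        rintro a b ⟨ha, u, hu, h1⟩ ⟨hb, v, hv, h2⟩
        refine ⟨mul_mem ha hb, u * v, mul_mem hu hv, ?_⟩
        rw [show a * b * (u * v) = a * (b * u) * v by group, cm hb hu, show a * (u * b) * v = a * u * (b * v) by group]
        exact mul_mem h1 h2
      inv_mem' := by
        rintro a ⟨ha, u, hu, h1⟩
        refine ⟨inv_mem ha, u⁻¹, inv_mem hu, ?_⟩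
        rw [← mul_inv_rev, ← cm ha hu]
        exact inv_mem h1 }
  refine hA.le_of_le_normalizer (Q := A') (isPGroup_iff_forall.2 ?_) (fun a ha => h.le C hC ha.1)
    (le_normalizer_of_forall_cj_le fun g hg => cj_le_iff'.2 ?_) ⟨hc, w, hw, hb⟩
  · rintro a ⟨ha, u, hu, h1⟩
    obtain ⟨k, hk⟩ := isPGroup_iff_forall.1 hA.isPGroup _ h1
    rw [(show Commute a u from cm ha hu).mul_pow, mul_eq_one_iff_eq_inv] at hk
    exact ⟨k, h.disj hC (s := 𝒞 \ {C}) Set.sdiff_subset (fun e => e.2 rfl) (pow_mem ha _) (hk ▸ inv_mem (pow_mem hu _))⟩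
  · rintro a ⟨ha, u, hu, h1⟩
    refine ⟨conj_mem_of_mem_normalizer (h.nrm hC (hA.le hg)) ha, g * u * g⁻¹, ?_, ?_⟩
    · refine cj_le_iff'.1 (cj_le_iff.2 (sSup_le fun C' h' => cj_le_iff.1 ?_)) u hu
      rw [cj_eq_of_mem_normalizer (h.nrm h'.1 (hA.le hg))]
      exact le_sSup h'
    · rw [show g * a * g⁻¹ * (g * u * g⁻¹) = g * (a * u) * g⁻¹ by group]
      exact mul_mem (mul_mem hg h1) (inv_mem hg)

theorem gen {p : ℕ} [Fact p.Prime] {A : Subgroup X} (hA : SylowIn p A N) (hp : ∀ C ∈ 𝒞, Pr p C) :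
    A ≤ closure {g | Gd N A g} := by
  have one : ∀ C ∈ 𝒞, A ⊓ C ≤ closure {g | Gd N A g} := fun C hC => by
    have := (subgroupOfEquivOfLe (inf_le_right : A ⊓ C ≤ C)).isCyclic.1
      ((hp C hC).cyc _ (isPGroup_subgroupOf (hA.isPGroup.to_le inf_le_left) C))
    obtain ⟨g, hg⟩ := (Subgroup.isCyclic_iff_exists_zpowers_eq_top _).1 this
    have m : g ∈ A ⊓ C := hg ▸ mem_zpowers g
    rw [← hg, zpowers_le]
    refine subset_closure ⟨m.1, sSup (𝒞 \ {C}), sSup_le fun C' h' => h.le C' h'.1, sSup_le fun C' h' =>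
      (h.perf h'.1).trans (commutator_mono (le_sSup h') (le_sSup h')), fun w hw =>
      h.cent hC (s := 𝒞 \ {C}) Set.sdiff_subset (fun e => e.2 rfl) m.2 hw, fun b hb => ?_⟩
    obtain ⟨c, hc, w, hw, rfl⟩ := h.dec hC (s := 𝒞 \ {C}) Set.sdiff_subset (x := b) (by
      rw [← sSup_insert, Set.insert_sdiff_singleton, Set.insert_eq_of_mem hC]; exact h.sup (hA.le hb))
    obtain ⟨k, rfl⟩ : c ∈ zpowers g := hg ▸ ⟨h.comp hA hC hc hw hb, hc⟩
    exact ⟨k, by simpa using hw⟩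
  have : ∀ s : Set (Subgroup X), s.Finite → s ⊆ 𝒞 → A ⊓ sSup s ≤ closure {g | Gd N A g} := fun s hs => by
    induction s, hs using Set.Finite.induction_on with
    | empty => simp
    | @insert C s hn _ ih =>
      rintro hs b ⟨hb, hb'⟩
      obtain ⟨hC, hs⟩ := Set.insert_subset_iff.1 hs
      obtain ⟨c, hc, w, hw, rfl⟩ := h.dec hC hs (x := b) (by rwa [← sSup_insert])
      have := h.comp hA hC hc (sSup_le_sSup (Set.subset_sdiff_singleton hs hn) hw) hb
      exact mul_mem (one C hC ⟨this, hc⟩) (ih hs ⟨(mul_mem_cancel_left this).1 hb, hw⟩)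
  exact (le_inf le_rfl (hA.le.trans h.sup)).trans (this 𝒞 (Set.toFinite _) subset_rfl)

theorem le_of_index [N.Normal] {p : ℕ} (pp : p.Prime) (hp : ∀ C ∈ 𝒞, Pr p C) (M : Subgroup X)
    (hM : ∃ j, M.index = p ^ j) : N ≤ M := h.sup.trans (sSup_le fun C hC => by
  obtain ⟨j, hj⟩ := hM
  have d : (M ⊓ N).relIndex C ∣ p ^ j := by
    refine (relIndex_dvd_of_norm inf_le_right (h.le C hC) (h.nrm hC)).trans ?_
    rw [inf_relIndex_right, ← hj, ← relIndex_top_right]
    exact relIndex_dvd_of_norm le_top le_top le_normalizer_of_normal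
  obtain ⟨i, -, hi⟩ := (Nat.dvd_prime_pow pp).1 d
  exact (subgroupOf_eq_top.1 ((hp C hC).idx _ ⟨i, hi⟩)).trans inf_le_left)

theorem mem_of_norm {p : ℕ} (hp : ∀ C ∈ 𝒞, Pr p C) (hc : ∀ x : X, (∀ a ∈ N, a * x = x * a) → x = 1) {x : X}
    {k : ℕ} (hx : x ^ p ^ k = 1) (hn : ∀ C ∈ 𝒞, x ∈ normalizer (C : Set X)) : x ∈ N := by
  have : ∀ s : Set (Subgroup X), s.Finite → s ⊆ 𝒞 → ∃ n ∈ sSup s, ∀ a ∈ sSup s, a * (n⁻¹ * x) = n⁻¹ * x * a :=
    fun s hs => by
    induction s, hs using Set.Finite.induction_on with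
    | empty => exact fun _ => ⟨1, one_mem _, by simp⟩
    | @insert C s hs0 _ ih =>
      intro hs
      obtain ⟨hC, hs⟩ := Set.insert_subset_iff.1 hs
      obtain ⟨n, hn', h1⟩ := ih hs
      obtain ⟨c, e⟩ := (hp C hC).inn (C.normalizerMonoidHom ⟨x, hn C hC⟩)
        ⟨k, by rw [← map_pow, show (⟨x, hn C hC⟩ : normalizer (C : Set X)) ^ p ^ k = 1 from Subtype.ext hx, map_one]⟩
      refine ⟨n * c, by rw [sSup_insert, sup_comm]; exact mul_mem_sup hn' c.2, fun a ha => ?_⟩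
      refine mem_centralizer_singleton_iff.1 ((sSup_le ?_ : _ ≤ centralizer {_}) ha)
      clear ha a
      intro C' h' a ha
      rw [mem_centralizer_singleton_iff]
      rcases Set.mem_insert_iff.1 h' with e' | h'
      · rw [e'] at ha
        have e1 : x * a * x⁻¹ = c * a * (c : X)⁻¹ := by
          have := congrArg Subtype.val (DFunLike.congr_fun e (⟨a, ha⟩ : C))
          exact this
        have e2 := h.cent hC hs hs0 (mul_mem (mul_mem c.2 ha) (inv_mem c.2)) (inv_mem hn')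
        calc a * ((n * c)⁻¹ * x) = (c : X)⁻¹ * (c * a * (c : X)⁻¹ * n⁻¹) * x := by group
          _ = _ := by rw [e2, ← e1]; group
      · have e2 := h.cent hC hs hs0 (inv_mem c.2) (le_sSup h' ha)
        calc a * ((n * c)⁻¹ * x) = a * (c : X)⁻¹ * (n⁻¹ * x) := by group
          _ = _ := by rw [← e2, mul_assoc, h1 a (le_sSup h' ha)]; group
  obtain ⟨n, hn', h1⟩ := this 𝒞 (Set.toFinite _) subset_rfl
  rw [← inv_mul_eq_one.1 (hc _ fun a ha => h1 a (h.sup ha))]
  exact sSup_le h.le hn'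

theorem false [N.Normal] {p : ℕ} [pp : Fact p.Prime] (p2 : p ≠ 2) (hp : ∀ C ∈ 𝒞, Pr p C) (hC : C ∈ 𝒞)
    (hc : ∀ x : X, (∀ a ∈ N, a * x = x * a) → x = 1) {P : Subgroup X} (hP : SylowIn p P ⊤)
    (hab : p ^ 6 ∣ Nat.card P → ∀ a ∈ P, ∀ b ∈ P, a * b = b * a)
    (hle : Nat.card (N ⊓ P : Subgroup X) ^ 2 ≤ Nat.card P) : False := by
  have hA : SylowIn p (P ⊓ N) N := hP.inf_of_normal_le le_normalizer_of_normal le_top
  rw [inf_comm] at hA
  set A := N ⊓ P
  have ne : ∀ C ∈ 𝒞, ∃ g ∈ A, g ∈ C ∧ g ≠ 1 := fun C hC => by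
    obtain ⟨g, hg⟩ := ne_bot_iff_exists_ne_one.1
      ((hA.inf_of_normal_le (h.nrm hC) (h.le C hC)).ne_bot (hp C hC).dvd)
    exact ⟨g, g.2.1, g.2.2, fun e => hg (Subtype.ext e)⟩
  by_cases hn : ∀ x ∈ P, ∀ C ∈ 𝒞, x ∈ normalizer (C : Set X)
  · have : A = P := inf_eq_right.2 fun x hx => by
      obtain ⟨k, hk⟩ := isPGroup_iff_forall.1 hP.isPGroup x hx
      exact h.mem_of_norm hp hc hk (hn x hx)
    obtain ⟨g, hg, -, g1⟩ := ne C hC
    have := (one_lt_card_iff_ne_bot A).2 fun e => g1 (mem_bot.1 (e ▸ hg))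
    rw [← ‹A = P›] at hle
    nlinarith
  push Not at hn
  obtain ⟨x, hx, E, hE, hn⟩ := hn
  have n1 : cj x E ≠ E := fun e => hn (mem_normalizer_iff_cj.2 e)
  have n2 : cj x (cj x E) ≠ cj x E := fun e => n1 (cj_injective x e)
  have n3 : cj x (cj x E) ≠ E := fun e => hn (by
    rw [← cj_mul, ← mem_normalizer_iff_cj, ← pow_two] at e
    obtain ⟨k, hk⟩ := isPGroup_iff_forall.1 hP.isPGroup x hx
    obtain ⟨m, hm⟩ := (pp.out.odd_of_ne_two p2).pow (n := k)
    have := pow_mem e (m + 1)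
    rwa [← pow_mul, show 2 * (m + 1) = 2 * m + 1 + 1 by ring, ← hm, pow_succ, hk, one_mul] at this)
  have h1 := h.cnj E hE x
  have h2 := h.cnj _ h1 x
  obtain ⟨g₀, a0, c0, b0⟩ := ne E hE
  obtain ⟨g₁, a1, c1, b1⟩ := ne _ h1
  obtain ⟨g₂, a2, c2, b2⟩ := ne _ h2
  have st : ∀ {U V : Subgroup X}, U < V → V ≤ A → p * Nat.card U ≤ Nat.card V := fun {U V} lt le => by
    obtain ⟨i, hi⟩ := (hA.isPGroup.to_le (lt.le.trans le)).exists_card_eq
    obtain ⟨j, hj⟩ := (hA.isPGroup.to_le le).exists_card_eq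
    have := H3.card_lt_card_of_lt lt
    rw [hi, hj] at this ⊢
    rw [← pow_succ']
    exact Nat.pow_le_pow_right pp.out.pos ((Nat.pow_lt_pow_iff_right pp.out.one_lt).1 this)
  have s0 := st (U := ⊥) (V := A ⊓ E) (bot_lt_iff_ne_bot.2 fun e => b0 (mem_bot.1 (e ▸ ⟨a0, c0⟩))) inf_le_left
  have s1 := st (U := A ⊓ E) (V := A ⊓ sSup {E, cj x E}) (lt_of_le_of_ne (inf_le_inf_left _ (le_sSup (by simp)))
    fun e => b1 (h.disj h1 (s := {E}) (by simpa using hE) (by simpa using n1) c1 (by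
      rw [sSup_singleton]
      exact (e.ge ⟨a1, le_sSup (s := {E, cj x E}) (by simp) c1⟩).2))) inf_le_left
  have s2 := st (U := A ⊓ sSup {E, cj x E}) (V := A) (lt_of_le_of_ne inf_le_left
    fun e => b2 (h.disj h2 (s := {E, cj x E}) (by simp [Set.insert_subset_iff, hE, h1]) (by simp [n2, n3]) c2
      (e.ge a2).2)) le_rfl
  rw [card_bot, mul_one] at s0
  have l : p ^ 6 ≤ Nat.card P := by
    refine le_trans ?_ hle
    rw [show 6 = 3 * 2 from rfl, pow_mul]
    refine Nat.pow_le_pow_left (le_trans ?_ s2) 2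
    rw [pow_succ', pow_two]
    exact Nat.mul_le_mul_left _ (le_trans (Nat.mul_le_mul_left _ s0) s1)
  obtain ⟨j, hj⟩ := hP.isPGroup.exists_card_eq
  rw [hj] at l hab
  have := hab (pow_dvd_pow p ((Nat.pow_le_pow_iff_right pp.out.one_lt).1 l)) x hx g₀ a0.2
  exact b0 (h.disj h1 (s := {E}) (by simpa using hE) (by simpa using n1)
    (by rw [← conj_mem_cj (g := x), this, mul_inv_cancel_right] at c0; exact c0) (by rwa [sSup_singleton]))

end Soc

end H50.FRam
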